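import Cfsg.Agent.H950.L16.Stab
import Cfsg.Agent.S1054
import Mathlib.GroupTheory.Sylow

/-!
# S5916 (`L₂(16)` in `E₈(2)`), helper860: generation of `SL₂(16)` by two elements of order 17 and an involution

`gen_top`, and `eq_one_of_comm_three` : an element of `E₈(2)` commuting with `f y`, `f t0` and `f y'` is trivial.
-/

set_option autoImplicit false
set_option maxRecDepth 100000
set_option linter.unusedSectionVars false

namespace Cfsg.Agent.H860.L16

open Matrix Cfsg Cfsg.Lie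
open Cfsg.Agent.H939.L64 (KK E2 LK em aK rE fr)
open Cfsg.Agent.H950.L16 (Sit)

/-- a subgroup of a group of order 4080 containing a dihedral group of order 34 and two Sylow 17-subgroups is everything -/
theorem gen_top_of_card {G : Type*} [Group G] [Finite G] (hG : Nat.card G = 4080) (C : Subgroup G) {y t y' : G}
    (hy : y ∈ C) (hyo : orderOf y = 17) (ht : t ∈ C) (ht2 : t * t = 1) (ht1 : t ≠ 1) (hty : t * y * t = y⁻¹)
    (hy' : y' ∈ C) (hyo' : orderOf y' = 17) (hn : y' ∉ Subgroup.zpowers y) : C = ⊤ := by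
  have : Fact (Nat.Prime 17) := ⟨by norm_num⟩
  have hC : Nat.card C ∣ 4080 := hG ▸ Subgroup.card_subgroup_dvd_card C
  have hYo : orderOf (⟨y, hy⟩ : C) = 17 := by rw [← hyo]; exact Subgroup.orderOf_mk y hy
  have hYo' : orderOf (⟨y', hy'⟩ : C) = 17 := by rw [← hyo']; exact Subgroup.orderOf_mk y' hy'
  have hTo : orderOf (⟨t, ht⟩ : C) = 2 := by
    refine orderOf_eq_prime ?_ ?_
    · rw [pow_two]; exact Subtype.ext ht2
    · intro h; exact ht1 (congrArg Subtype.val h)
  -- Sylow 17-subgroups have order 17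
  have hcard : ∀ (P : Sylow 17 C) (x : C), orderOf x = 17 → x ∈ P → (P : Subgroup C) = Subgroup.zpowers x := by
    intro P x hx hxP
    obtain ⟨k, hk⟩ := (IsPGroup.iff_card).1 P.isPGroup'
    have hd : Nat.card P ∣ 4080 := (Subgroup.card_subgroup_dvd_card (P : Subgroup C)).trans hC
    have hk1 : k ≤ 1 := by
      by_contra hlt
      have h2 : 17 ^ 2 ∣ 4080 := (pow_dvd_pow 17 (by omega : 2 ≤ k)).trans (hk ▸ hd)
      revert h2; decide
    have hle : Subgroup.zpowers x ≤ (P : Subgroup C) := by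
      rw [Subgroup.zpowers_le]; exact hxP
    refine (Subgroup.eq_of_le_of_card_ge hle ?_).symm
    rw [Nat.card_zpowers, hx]
    have : Nat.card P ≤ 17 ^ 1 := hk ▸ Nat.pow_le_pow_right (by norm_num) hk1
    simpa using this
  have hex : ∀ x : C, orderOf x = 17 → ∃ P : Sylow 17 C, x ∈ P := by
    intro x hx
    have h1 : IsPGroup 17 (Subgroup.zpowers x) := IsPGroup.of_card (n := 1) (by rw [Nat.card_zpowers, hx, pow_one])
    obtain ⟨P, hP⟩ := h1.exists_le_sylow
    exact ⟨P, hP (Subgroup.mem_zpowers x)⟩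
  obtain ⟨P, hP⟩ := hex _ hYo
  obtain ⟨P', hP'⟩ := hex _ hYo'
  have hPz := hcard P _ hYo hP
  have hne : Nat.card (Sylow 17 C) ≠ 1 := by
    intro h1
    obtain ⟨hs, _⟩ := Nat.card_eq_one_iff_unique.1 h1
    have h2 : P' = P := Subsingleton.elim _ _
    rw [h2] at hP'
    have h3 : (⟨y', hy'⟩ : C) ∈ (P : Subgroup C) := hP'
    rw [hPz] at h3
    obtain ⟨i, hi⟩ := Subgroup.mem_zpowers_iff.1 h3
    exact hn (Subgroup.mem_zpowers_iff.2 ⟨i, congrArg Subtype.val hi⟩)
  have hmod := card_sylow_modEq_one 17 C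
  have hidx : Nat.card (Sylow 17 C) = (Subgroup.normalizer ((P : Subgroup C) : Set C)).index := P.card_eq_index_normalizer
  set N := Subgroup.normalizer ((P : Subgroup C) : Set C) with hN
  have hYN : (⟨y, hy⟩ : C) ∈ N := Subgroup.le_normalizer hP
  have hTN : (⟨t, ht⟩ : C) ∈ N := by
    have hinv : (⟨t, ht⟩ : C)⁻¹ = ⟨t, ht⟩ := inv_eq_of_mul_eq_one_left (Subtype.ext ht2)
    have key : ∀ i : ℤ, (⟨t, ht⟩ : C) * (⟨y, hy⟩ : C) ^ i * (⟨t, ht⟩ : C)⁻¹ = ((⟨y, hy⟩ : C) ^ i)⁻¹ := by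
      intro i
      have h0 : (⟨t, ht⟩ : C) * (⟨y, hy⟩ : C) * (⟨t, ht⟩ : C)⁻¹ = (⟨y, hy⟩ : C)⁻¹ := by
        rw [hinv]; exact Subtype.ext hty
      rw [← conj_zpow, h0, _root_.inv_zpow]
    have key2 : ∀ x ∈ (P : Subgroup C), (⟨t, ht⟩ : C) * x * (⟨t, ht⟩ : C)⁻¹ ∈ (P : Subgroup C) := by
      intro x hx
      rw [hPz] at hx ⊢
      obtain ⟨i, rfl⟩ := Subgroup.mem_zpowers_iff.1 hx
      rw [key]
      exact inv_mem (Subgroup.zpow_mem _ (Subgroup.mem_zpowers _) i)
    rw [hN, Subgroup.mem_normalizer_iff]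
    intro x
    refine ⟨key2 x, fun hx => ?_⟩
    have h1 := key2 _ hx
    rw [hinv] at h1
    have h2 : (⟨t, ht⟩ : C) * (⟨t, ht⟩ : C) = 1 := Subtype.ext ht2
    have h3 : (⟨t, ht⟩ : C) * ((⟨t, ht⟩ : C) * x * (⟨t, ht⟩ : C)) * (⟨t, ht⟩ : C) = x := by
      calc _ = ((⟨t, ht⟩ : C) * (⟨t, ht⟩ : C)) * x * ((⟨t, ht⟩ : C) * (⟨t, ht⟩ : C)) := by group
        _ = x := by rw [h2, one_mul, mul_one]
    rwa [h3] at h1
  have h17 : 17 ∣ Nat.card N := by
    have := orderOf_dvd_natCard (⟨⟨y, hy⟩, hYN⟩ : N)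
    rwa [Subgroup.orderOf_mk, hYo] at this
  have h2 : 2 ∣ Nat.card N := by
    have := orderOf_dvd_natCard (⟨⟨t, ht⟩, hTN⟩ : N)
    rwa [Subgroup.orderOf_mk, hTo] at this
  have h34 : 34 ∣ Nat.card N := by
    have := Nat.Coprime.mul_dvd_of_dvd_of_dvd (by decide : Nat.Coprime 17 2) h17 h2
    simpa using this
  have hmul : Nat.card N * Nat.card (Sylow 17 C) = Nat.card C := by
    rw [hidx]; exact Subgroup.card_mul_index N
  obtain ⟨k, hk⟩ := h34
  have hn120 : Nat.card (Sylow 17 C) ∣ 120 := by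
    have h5 : 34 * Nat.card (Sylow 17 C) ∣ 34 * 120 := by
      refine dvd_trans ?_ (by simpa using hC : Nat.card C ∣ 34 * 120)
      rw [← hmul, hk]
      exact ⟨k, by ring⟩
    exact Nat.dvd_of_mul_dvd_mul_left (by norm_num) h5
  have h120 : Nat.card (Sylow 17 C) = 120 := by
    have h6 : ∀ m ∈ Nat.divisors 120, m % 17 = 1 → m = 1 ∨ m = 120 := by decide
    have h7 : Nat.card (Sylow 17 C) % 17 = 1 := hmod
    rcases h6 _ (Nat.mem_divisors.2 ⟨hn120, by norm_num⟩) h7 with h | h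
    · exact absurd h hne
    · exact h
  have hNpos : 0 < Nat.card N := Nat.card_pos
  have hk0 : 0 < k := by
    rcases Nat.eq_zero_or_pos k with h | h
    · rw [h] at hk; omega
    · exact h
  have hle : 4080 ≤ Nat.card C := by
    rw [← hmul, h120, hk]
    nlinarith
  apply Subgroup.eq_top_of_card_eq
  rw [hG]
  exact le_antisymm (Nat.le_of_dvd (by norm_num) hC) hle

/-- the abstract form -/
theorem commute_all {G E : Type*} [Group G] [Finite G] [Group E] (hG : Nat.card G = 4080) (f : G →* E) {y t y' : G}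
    (hyo : orderOf y = 17) (ht2 : t * t = 1) (ht1 : t ≠ 1) (hty : t * y * t = y⁻¹)
    (hyo' : orderOf y' = 17) (hn : y' ∉ Subgroup.zpowers y) {r : E} (h1 : Commute r (f y)) (h2 : Commute r (f t))
    (h3 : Commute r (f y')) (s : G) : Commute r (f s) := by
  have h4 : (Subgroup.centralizer {r}).comap f = ⊤ := by
    refine gen_top_of_card hG _ (y := y) (t := t) (y' := y') ?_ hyo ?_ ht2 ht1 hty ?_ hyo' hn
    · exact Subgroup.mem_centralizer_singleton_iff.2 h1.symm.eq
    · exact Subgroup.mem_centralizer_singleton_iff.2 h2.symm.eq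
    · exact Subgroup.mem_centralizer_singleton_iff.2 h3.symm.eq
  have h5 : s ∈ (Subgroup.centralizer {r}).comap f := by rw [h4]; exact Subgroup.mem_top s
  exact (Subgroup.mem_centralizer_singleton_iff.1 h5 : f s * r = r * f s).symm

variable {F : Type} [Field F] [Fintype F]

theorem card_sl (hF : Fintype.card F = 16) : Nat.card (SpecialLinearGroup (Fin 2) F) = 4080 := by
  rw [Cfsg.Agent.ClassicalGeometry.PSL2Basic.card_SL2, hF]
  norm_num

/-- **[GEN]** a subgroup of `SL₂(16)` containing `y` of order 17, an involution inverting `y` and an element of order 17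
outside `⟨y⟩` -/
theorem gen_top (hF : Fintype.card F = 16) (C : Subgroup (SpecialLinearGroup (Fin 2) F))
    {y t y' : SpecialLinearGroup (Fin 2) F}
    (hy : y ∈ C) (hyo : orderOf y = 17) (ht : t ∈ C) (ht2 : t * t = 1) (ht1 : t ≠ 1) (hty : t * y * t = y⁻¹)
    (hy' : y' ∈ C) (hyo' : orderOf y' = 17) (hn : y' ∉ Subgroup.zpowers y) : C = ⊤ :=
  gen_top_of_card (card_sl hF) C hy hyo ht ht2 ht1 hty hy' hyo' hn

/-- the form used by helper950 -/
theorem gen {F : Type} [Field F] [Fintype F] (hF : Fintype.card F = 16)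
    {y y' t0 : Matrix.SpecialLinearGroup (Fin 2) F} (hy : orderOf y = 17) (hy' : orderOf y' = 17)
    (hn : y' ∉ Subgroup.zpowers y) (ht2 : t0 * t0 = 1) (ht1 : t0 ≠ 1) (hty : t0 * y * t0 = y⁻¹)
    (C : Subgroup (Matrix.SpecialLinearGroup (Fin 2) F)) (h1 : y ∈ C) (h2 : y' ∈ C) (h3 : t0 ∈ C) : C = ⊤ :=
  gen_top hF C h1 hy h3 ht2 ht1 hty h2 hy' hn

variable {H : Subgroup E2} {f : SpecialLinearGroup (Fin 2) F →* E2} {y : SpecialLinearGroup (Fin 2) F}

/-- the centraliser of the socle is trivial -/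
theorem eq_one_of_cen (S : Sit H f y) {r : E2} (h : ∀ s, Commute r (f s)) : r = 1 := by
  have hs : IsSimpleGroup E2 := (S1054.result (F := ZMod 2) chevE8 (by simp)).1
  have hr : r ∈ Subgroup.normalizer (f.range : Set E2) := by
    rw [Subgroup.mem_normalizer_iff]
    intro x
    constructor
    · rintro ⟨s, rfl⟩
      exact ⟨s, by rw [(h s).eq, mul_inv_cancel_right]⟩
    · rintro ⟨s, hs⟩
      refine ⟨s, ?_⟩
      have h1 : x = r⁻¹ * (r * x * r⁻¹) * r := by group
      rw [h1, ← hs, mul_assoc, ← (h s).eq, ← mul_assoc, inv_mul_cancel, one_mul]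
  have hle : H ≤ Subgroup.normalizer (f.range : Set E2) := by
    have key : ∀ g ∈ H, ∀ x ∈ f.range, g * x * g⁻¹ ∈ f.range := by
      rintro g hg _ ⟨s, rfl⟩
      obtain ⟨τ, hτ⟩ := S.nor g hg
      exact ⟨τ s, hτ s⟩
    intro g hg
    rw [Subgroup.mem_normalizer_iff]
    intro x
    refine ⟨key g hg x, fun hx => ?_⟩
    have h1 := key g⁻¹ (H.inv_mem hg) _ hx
    have h2 : g⁻¹ * (g * x * g⁻¹) * g⁻¹⁻¹ = x := by group
    rwa [h2] at h1
  have hrH : r ∈ H := by
    rcases S.co.le_iff.1 hle with h1 | h1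
    · exfalso
      have hn : (f.range).Normal := Subgroup.normalizer_eq_top_iff.1 h1
      rcases hs.eq_bot_or_eq_top_of_normal _ hn with h2 | h2
      · have h3 : f y ∈ f.range := ⟨y, rfl⟩
        rw [h2, Subgroup.mem_bot, ← map_one f] at h3
        have h4 := S.inj h3
        have h5 := S.ord
        rw [h4, orderOf_one] at h5
        omega
      · apply S.co.1
        rw [eq_top_iff, ← h2]
        rintro _ ⟨s, rfl⟩
        exact S.le s
    · rw [← h1]; exact hr
  exact S.tri r hrH h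

/-- **[GEN]** an element of `E₈(2)` commuting with `f y`, `f t0` and `f y'` is trivial -/
theorem eq_one_of_comm_three (hF : Fintype.card F = 16) (S : Sit H f y) {t0 y' : SpecialLinearGroup (Fin 2) F}
    (ht2 : t0 * t0 = 1) (ht1 : t0 ≠ 1) (hty : t0 * y * t0 = y⁻¹) (hyo' : orderOf y' = 17)
    (hn : y' ∉ Subgroup.zpowers y) {r : E2} (h1 : Commute r (f y)) (h2 : Commute r (f t0)) (h3 : Commute r (f y')) :
    r = 1 :=
  eq_one_of_cen S (commute_all (card_sl hF) f S.ord ht2 ht1 hty hyo' hn h1 h2 h3)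

end Cfsg.Agent.H860.L16
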